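import Cfsg.Agent.H383.Dg.RedA

/-!
# Reduction for S5734 (proportion of derangements), part B: the product case (helper383)
-/

set_option autoImplicit false

namespace Cfsg.Agent.H383.Dg

open Cfsg.Agent.H851.Sims Cfsg.Agent.H717.Sims Cfsg.Agent.H851.Dg

universe u

section

variable {G : Type*} [Group G]

theorem mem_normalizer_iff_cjS [Finite G] {g : G} {T : Subgroup G} :
    g ∈ Subgroup.normalizer (T : Set G) ↔ cjS g T = T := by
  constructor
  · intro hg
    ext x
    rw [mem_cjS]
    have h1 := Subgroup.mem_normalizer_iff.1 hg (g⁻¹ * x * g)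
    have e : g * (g⁻¹ * x * g) * g⁻¹ = x := by group
    rw [e] at h1
    exact h1
  · intro hg
    rw [Subgroup.mem_normalizer_iff]
    intro x
    have h1 : g * x * g⁻¹ ∈ cjS g T ↔ x ∈ T := by
      rw [mem_cjS]
      have e : g⁻¹ * (g * x * g⁻¹) * g = x := by group
      rw [e]
    rw [← h1, hg]

variable [Finite G] {N : Subgroup G} {m : ℕ} {T : Fin m → Subgroup G} {pr : Fin m → G → G}

theorem card_le_mul_normalizer (h : Co N T pr) (i : Fin m) :
    Nat.card G ≤ m * Nat.card (Subgroup.normalizer (T i : Set G)) := by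
  classical
  rw [← (Subgroup.normalizer (T i : Set G)).index_mul_card]
  refine Nat.mul_le_mul_right _ ?_
  let f : (G ⧸ Subgroup.normalizer (T i : Set G)) → Fin m := fun q => (h.conj q.out i).choose
  have hf : ∀ q, T (f q) = cjS q.out (T i) := fun q => (h.conj q.out i).choose_spec
  have hinj : Function.Injective f := by
    intro q q' hqq
    have h1 : cjS q.out (T i) = cjS q'.out (T i) := by rw [← hf q, ← hf q', hqq]
    have h2 : q.out⁻¹ * q'.out ∈ Subgroup.normalizer (T i : Set G) := by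
      rw [mem_normalizer_iff_cjS, cjS_mul, ← h1, ← cjS_mul, inv_mul_cancel]
      exact cjS_of_mem (T i).one_mem
    have h3 := QuotientGroup.eq.2 h2
    rwa [QuotientGroup.out_eq', QuotientGroup.out_eq'] at h3
  have := Nat.card_le_card_of_injective f hinj
  rwa [Nat.card_fin] at this

theorem card_T (h : Co N T pr) (i j : Fin m) : Nat.card (T i) = Nat.card (T j) := by
  obtain ⟨g, hg⟩ := h.trans i j
  rw [hg, card_cjS]

omit [Finite G] in
theorem exists_of_coord (h : Co N T pr) (f : ∀ i, T i) : ∃ x ∈ N, ∀ i, pr i x = f i := by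
  classical
  have key : ∀ s : Finset (Fin m), ∃ x ∈ N, (∀ i ∈ s, pr i x = f i) ∧ ∀ i, i ∉ s → pr i x = 1 := by
    intro s
    induction s using Finset.induction_on with
    | empty => exact ⟨1, N.one_mem, fun i hi => absurd hi (Finset.notMem_empty i), fun i _ => h.one i⟩
    | insert a s ha ih =>
      obtain ⟨x, hx, h1, h2⟩ := ih
      have hfa : (f a : G) ∈ N := h.le a (f a).2
      refine ⟨x * f a, N.mul_mem hx hfa, fun i hi => ?_, fun i hi => ?_⟩
      · rw [h.mul i x hx _ hfa]
        by_cases hia : i = a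
        · subst hia
          rw [h2 i ha, h.same i _ (f i).2, one_mul]
        · rw [h.ne a i (Ne.symm hia) _ (f a).2, mul_one]
          exact h1 i (Finset.mem_of_mem_insert_of_ne hi hia)
      · rw [h.mul i x hx _ hfa]
        have hia : i ≠ a := fun hia => hi (hia ▸ Finset.mem_insert_self a s)
        rw [h.ne a i (Ne.symm hia) _ (f a).2, mul_one]
        exact h2 i fun hi' => hi (Finset.mem_insert_of_mem hi')
  obtain ⟨x, hx, h1, -⟩ := key Finset.univ
  exact ⟨x, hx, fun i => h1 i (Finset.mem_univ i)⟩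

theorem pow_le_card_N (h : Co N T pr) (i : Fin m) : Nat.card (T i) ^ m ≤ Nat.card N := by
  classical
  choose x hx hx' using exists_of_coord h
  have h1 : Nat.card (∀ j, T j) ≤ Nat.card N := by
    refine Nat.card_le_card_of_injective (fun f => (⟨x f, hx f⟩ : N)) ?_
    intro f f' hff
    have h2 : x f = x f' := congrArg Subtype.val hff
    funext j
    apply Subtype.ext
    rw [← hx' f j, ← hx' f' j, h2]
  rw [Nat.card_pi] at h1
  calc Nat.card (T i) ^ m = ∏ j, Nat.card (T j) := by
        rw [Finset.prod_congr rfl fun j _ => card_T h j i]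
        simp
    _ ≤ Nat.card N := h1

end

/-- the product case -/
theorem product_case {G : Type u} [Group G] [Finite G] {N : Subgroup G} [hN : N.Normal] {m : ℕ}
    {T : Fin m → Subgroup G} {pr : Fin m → G → G} (h : Co N T pr) {A : Subgroup G} (hA : IsCoatom A)
    (hcore : A.normalCore = ⊥) (hNA : N ⊔ A = ⊤) (hNA' : N ⊓ A ≠ ⊥) (hP : ∀ x ∈ N ⊓ A, ∀ i, pr i x ∈ A)
    (i : Fin m) {c : ℝ} (hc : 0 ≤ c) (hrow : Row c (T i)) :
    c * (Nat.card G : ℝ) ≤ Real.log A.index * nd A := by
  classical
  have hQ := h.quo hA hcore hNA hNA' hP i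
  set L : Subgroup G := Subgroup.normalizer (T i : Set G) with hL
  set φ := (T i).normalizerMonoidHom.rangeRestrict with hφ
  set A' : Subgroup L := A.subgroupOf L with hA'
  set T' : Subgroup L := (T i).subgroupOf L with hT'
  have hTL : T i ≤ L := Subgroup.le_normalizer
  have hNL : N ≤ L := by
    intro n hn
    rw [hL, Subgroup.mem_normalizer_iff]
    intro t
    refine ⟨fun ht => h.norm i n hn t ht, fun ht => ?_⟩
    have := h.norm i _ (N.inv_mem hn) _ ht
    have e : n⁻¹ * (n * t * n⁻¹) * n⁻¹⁻¹ = t := by group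
    rwa [e] at this
  have hQn := hQ.norm'
  let e1 : T' ≃* T'.map φ := MulEquiv.ofBijective (φ.subgroupMap T') ⟨by
    intro x y hxy
    apply Subtype.ext
    exact hQ.inj x.2 y.2 (congrArg Subtype.val hxy), φ.subgroupMap_surjective T'⟩
  let e2 : T' ≃* T i := Subgroup.subgroupOfEquivOfLe hTL
  have hsup : T'.map φ ⊔ A'.map φ = ⊤ := by
    rw [sup_comm]
    apply hQ.coatom.2
    exact lt_of_le_of_ne le_sup_left fun h' => hQ.notle' (by rw [h']; exact le_sup_right)
  have hrX := hrow _ (T'.map φ) (A'.map φ) hQn ⟨e1.symm.trans e2⟩ hQ.cent' hsup hQ.coatom.1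
  -- the index
  have hi1 := index_mul_card hsup
  have hcT : Nat.card (T'.map φ) = Nat.card (T i) := Nat.card_congr (e1.symm.trans e2).toEquiv
  rw [hcT] at hi1
  have hi2 : Nat.card (A ⊓ T i : Subgroup G) ≤ Nat.card (A'.map φ ⊓ T'.map φ : Subgroup _) := by
    refine le_trans ?_ hQ.card_le
    refine Nat.card_le_card_of_injective (fun x : (A ⊓ T i : Subgroup G) =>
      (⟨⟨(x : G), hTL x.2.2⟩, x.2.1, x.2.2⟩ : (A' ⊓ T' : Subgroup L))) ?_
    intro x y hxy
    apply Subtype.ext
    exact congrArg (fun z => ((z : L) : G)) (congrArg Subtype.val hxy)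
  have hi3 : (A'.map φ).index * Nat.card (A ⊓ T i : Subgroup G) ≤ Nat.card (T i) :=
    (Nat.mul_le_mul_left _ hi2).trans hi1.le
  have hi4 : (A'.map φ).index ^ m ≤ A.index := by
    have hpos : 0 < Nat.card (A ⊓ T i : Subgroup G) ^ m := pow_pos Nat.card_pos _
    refine Nat.le_of_mul_le_mul_right ?_ hpos
    calc (A'.map φ).index ^ m * Nat.card (A ⊓ T i : Subgroup G) ^ m
        = ((A'.map φ).index * Nat.card (A ⊓ T i : Subgroup G)) ^ m := (mul_pow _ _ _).symm
      _ ≤ Nat.card (T i) ^ m := Nat.pow_le_pow_left hi3 _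
      _ ≤ Nat.card N := pow_le_card_N h i
      _ ≤ A.index * Nat.card (N ⊓ A : Subgroup G) := card_le_index_mul A N
      _ ≤ A.index * Nat.card (A ⊓ T i : Subgroup G) ^ m := Nat.mul_le_mul_left _
          (h.card_inf_le hP fun j => h.card_inf_T hNA i j)
  have hidx1 : 1 ≤ (A'.map φ).index := Nat.one_le_iff_ne_zero.2 Subgroup.index_ne_zero_of_finite
  have hlog : (m : ℝ) * Real.log (A'.map φ).index ≤ Real.log A.index := by
    rw [← Real.log_pow]
    apply Real.log_le_log
    · have : (0 : ℝ) < ((A'.map φ).index : ℝ) := by exact_mod_cast hidx1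
      positivity
    · exact_mod_cast hi4
  -- the number of derangements
  have hpre := card_preimage φ hQ.surj {x | ∀ g, g * x * g⁻¹ ∉ A'.map φ}
  have hnd' : Nat.card ({x | ∀ g, g * x * g⁻¹ ∉ A'.map φ} : Set ((T i).normalizerMonoidHom).range) = nd (A'.map φ) := rfl
  rw [hnd'] at hpre
  have hnd : Nat.card {g : L // φ g ∈ ({x | ∀ g, g * x * g⁻¹ ∉ A'.map φ} : Set ((T i).normalizerMonoidHom).range)} ≤
      nd A := by
    refine Nat.card_le_card_of_injective (fun g => (⟨(g.1 : G), ?_⟩ : {x : G // ∀ g : G, g * x * g⁻¹ ∉ A})) ?_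
    · intro k hk
      have hk' : k⁻¹ ∈ N ⊔ A := by rw [hNA]; trivial
      obtain ⟨n, hn, a, ha, hna⟩ := Subgroup.mem_sup_of_normal_left.1 hk'
      have h1 : n⁻¹ * (g.1 : G) * n⁻¹⁻¹ ∈ A := by
        have h2 : k = a⁻¹ * n⁻¹ := by rw [← mul_inv_rev, hna, inv_inv]
        rw [h2] at hk
        have := A.mul_mem (A.mul_mem ha hk) (A.inv_mem ha)
        have e : a * (a⁻¹ * n⁻¹ * (g.1 : G) * (a⁻¹ * n⁻¹)⁻¹) * a⁻¹ = n⁻¹ * (g.1 : G) * n⁻¹⁻¹ := by group
        rwa [e] at this
      refine g.2 (φ ⟨n⁻¹, hNL (N.inv_mem hn)⟩) ?_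
      refine ⟨⟨n⁻¹, hNL (N.inv_mem hn)⟩ * g.1 * ⟨n⁻¹, hNL (N.inv_mem hn)⟩⁻¹, h1, ?_⟩
      rw [map_mul, map_mul, map_inv]
    · intro x y hxy
      apply Subtype.ext
      apply Subtype.ext
      exact Subtype.mk.inj hxy
  have hLG := card_le_mul_normalizer h i
  rw [← hL] at hLG
  have hX : (0 : ℝ) < (Nat.card ((T i).normalizerMonoidHom).range : ℝ) := by
    exact_mod_cast (Nat.card_pos (α := ((T i).normalizerMonoidHom).range))
  have k1 : (Nat.card G : ℝ) ≤ m * Nat.card L := by exact_mod_cast hLG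
  have k2 : (Nat.card L : ℝ) * nd (A'.map φ) ≤ nd A * Nat.card ((T i).normalizerMonoidHom).range := by
    have : Nat.card L * nd (A'.map φ) ≤ nd A * Nat.card ((T i).normalizerMonoidHom).range := by
      rw [← hpre]
      exact Nat.mul_le_mul_right _ hnd
    exact_mod_cast this
  have hl0 : 0 ≤ Real.log (A'.map φ).index := Real.log_nonneg (by exact_mod_cast hidx1)
  have k3 : c * (Nat.card G : ℝ) * Nat.card ((T i).normalizerMonoidHom).range ≤
      Real.log A.index * nd A * Nat.card ((T i).normalizerMonoidHom).range := by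
    calc c * (Nat.card G : ℝ) * Nat.card ((T i).normalizerMonoidHom).range
        = (c * Nat.card ((T i).normalizerMonoidHom).range) * Nat.card G := by ring
      _ ≤ (Real.log (A'.map φ).index * nd (A'.map φ)) * (m * Nat.card L) := by
          apply mul_le_mul hrX k1 (by positivity) (by positivity)
      _ = (m * Real.log (A'.map φ).index) * (Nat.card L * nd (A'.map φ)) := by ring
      _ ≤ Real.log A.index * (nd A * Nat.card ((T i).normalizerMonoidHom).range) := by
          apply mul_le_mul hlog k2 (by positivity)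
          exact le_trans (by positivity) hlog
      _ = Real.log A.index * nd A * Nat.card ((T i).normalizerMonoidHom).range := by ring
  exact le_of_mul_le_mul_right k3 hX

end Cfsg.Agent.H383.Dg
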