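import Cfsg.Agent.H383.Dg.RedB

/-!
# Reduction for S5734 (proportion of derangements), part C: the diagonal case (helper383)
-/

set_option autoImplicit false

namespace Cfsg.Agent.H383.Dg

open Cfsg.Agent.H851.Sims Cfsg.Agent.H717.Sims Cfsg.Agent.H851.Dg

section

variable {G : Type*} [Group G]

/-- conjugation by `g` on a subgroup `T` with `g T g⁻¹ = T` -/
def cn {T : Subgroup G} (g : G) (hg : cjS g T = T) : MulAut T where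
  toFun t := ⟨g * t * g⁻¹, by
    have h1 : g * (t : G) * g⁻¹ ∈ cjS g T := ⟨t, t.2, rfl⟩
    rwa [hg] at h1⟩
  invFun t := ⟨g⁻¹ * t * g, mem_cjS.1 (by rw [hg]; exact t.2)⟩
  left_inv t := Subtype.ext (by
    change g⁻¹ * (g * t * g⁻¹) * g = t
    group)
  right_inv t := Subtype.ext (by
    change g * (g⁻¹ * t * g) * g⁻¹ = t
    group)
  map_mul' s t := Subtype.ext (by
    change g * (s * t) * g⁻¹ = (g * s * g⁻¹) * (g * t * g⁻¹)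
    group)

theorem coe_cn {T : Subgroup G} (g : G) (hg : cjS g T = T) (t : T) : (cn g hg t : G) = g * t * g⁻¹ := rfl

theorem cjS_pow {T : Subgroup G} {g : G} (hg : cjS g T = T) (k : ℕ) : cjS (g ^ k) T = T := by
  induction k with
  | zero => rw [pow_zero]; exact cjS_of_mem T.one_mem
  | succ k ih => rw [pow_succ, cjS_mul, hg, ih]

theorem cjS_inj {g : G} {S T : Subgroup G} (h : cjS g S = cjS g T) : S = T := by
  have h1 : cjS g⁻¹ (cjS g S) = cjS g⁻¹ (cjS g T) := by rw [h]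
  rw [← cjS_mul, ← cjS_mul, inv_mul_cancel, cjS_of_mem S.one_mem, cjS_of_mem T.one_mem] at h1
  exact h1

variable {N : Subgroup G} {m : ℕ} {T : Fin m → Subgroup G} {pr : Fin m → G → G}

theorem pr_conjN [N.Normal] (h : Co N T pr) (i : Fin m) {n x : G} (hn : n ∈ N) (hx : x ∈ N) :
    pr i (n * x * n⁻¹) = pr i n * pr i x * (pr i n)⁻¹ := by
  rw [h.mul i _ (N.mul_mem hn hx) _ (N.inv_mem hn), h.mul i _ hn _ hx, h.inv i hn]

theorem pr_formula [hN : N.Normal] (h : Co N T pr) {i : Fin m} {γ : G} (hγ : cjS γ (T i) = T i) {n v x : G}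
    (hn : n ∈ N) (hv : v ∈ N) (hx : x ∈ N) :
    pr i ((n * (v * γ) * n⁻¹) * x * (n * (v * γ) * n⁻¹)⁻¹) =
      pr i n * (pr i v * (γ * ((pr i n)⁻¹ * pr i x * pr i n) * γ⁻¹) * (pr i v)⁻¹) * (pr i n)⁻¹ := by
  have h1 : n⁻¹ * x * n ∈ N := N.mul_mem (N.mul_mem (N.inv_mem hn) hx) hn
  have h2 : γ * (n⁻¹ * x * n) * γ⁻¹ ∈ N := hN.conj_mem _ h1 γ
  have h3 : v * (γ * (n⁻¹ * x * n) * γ⁻¹) * v⁻¹ ∈ N := N.mul_mem (N.mul_mem hv h2) (N.inv_mem hv)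
  have e : (n * (v * γ) * n⁻¹) * x * (n * (v * γ) * n⁻¹)⁻¹ =
      n * (v * (γ * (n⁻¹ * x * n) * γ⁻¹) * v⁻¹) * n⁻¹ := by group
  rw [e, pr_conjN h i hn h3, pr_conjN h i hv h2, h.pr_conj hγ.symm h1]
  have h4 := pr_conjN h i (N.inv_mem hn) hx
  rw [inv_inv, h.inv i hn, inv_inv] at h4
  rw [h4]

theorem conj_injective [Finite G] (h : Co N T pr) (i : Fin m) : Function.Injective (MulAut.conj : T i →* MulAut (T i)) := by
  rw [injective_iff_map_eq_one]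
  intro t ht
  have h1 : t ∈ Subgroup.center (T i) := by
    rw [Subgroup.mem_center_iff]
    intro s
    have := DFunLike.congr_fun ht s
    rw [MulAut.conj_apply, MulAut.one_apply] at this
    calc s * t = (t * s * t⁻¹) * t := by rw [this]
      _ = t * s := by group
  have := h.simple i
  rcases (inferInstance : (Subgroup.center (T i)).Normal).eq_bot_or_eq_top with h2 | h2
  · rw [h2, Subgroup.mem_bot] at h1
    exact h1
  · exfalso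
    obtain ⟨a, ha, b, hb, hab⟩ := h.nonab i
    have h3 : (⟨b, hb⟩ : T i) ∈ Subgroup.center (T i) := by rw [h2]; trivial
    exact hab (congrArg Subtype.val (Subgroup.mem_center_iff.1 h3 ⟨a, ha⟩))

/-- the key claim: `t g` conjugate into `A` -/
theorem diag_claim [hN : N.Normal] (h : Co N T pr) {A : Subgroup G} (hNA : N ⊔ A = ⊤) {i₁ i₂ : Fin m}
    (h12 : i₁ ≠ i₂) (θ : T i₁ ≃* T i₂)
    (hθ : ∀ (x : G) (hx : x ∈ N ⊓ A), (θ ⟨pr i₁ x, h.mem i₁ x hx.1⟩ : G) = pr i₂ x)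
    (hD1 : ∀ t ∈ T i₁, ∃ x ∈ N ⊓ A, pr i₁ x = t) {g : G} (hg : cjS g (T i₁) = T i₁) {j : ℕ} (hj0 : 0 < j)
    (hj1 : cjS (g ^ j) (T i₁) = T i₁) (hj2 : cjS (g ^ j) (T i₂) = T i₂)
    (hjmin : ∀ k, 0 < k → k < j → cjS (g ^ k) (T i₂) ≠ T i₂) (t : T i₂)
    (ht : ∃ k : G, k * ((t : G) * g) * k⁻¹ ∈ A) :
    ∃ u : T i₂, ∀ s : T i₂, u * θ (cn (g ^ j) hj1 (θ.symm (u⁻¹ * s * u))) * u⁻¹ = t * cn (g ^ j) hj2 s * t⁻¹ := by
  obtain ⟨k, hk⟩ := ht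
  obtain ⟨n, hn, hnt⟩ : ∃ n ∈ N, n * ((t : G) * g) * n⁻¹ ∈ A := by
    have hk' : k⁻¹ ∈ N ⊔ A := by rw [hNA]; trivial
    obtain ⟨n, hn, a, ha, hna⟩ := Subgroup.mem_sup_of_normal_left.1 hk'
    refine ⟨n⁻¹, N.inv_mem hn, ?_⟩
    have h2 : k = a⁻¹ * n⁻¹ := by rw [← mul_inv_rev, hna, inv_inv]
    rw [h2] at hk
    have := A.mul_mem (A.mul_mem ha hk) (A.inv_mem ha)
    have e : a * (a⁻¹ * n⁻¹ * ((t : G) * g) * (a⁻¹ * n⁻¹)⁻¹) * a⁻¹ = n⁻¹ * ((t : G) * g) * n⁻¹⁻¹ := by group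
    rwa [e] at this
  -- the elements `v k`
  have htN : (t : G) ∈ N := h.le i₂ t.2
  have hv : ∀ k : ℕ, ((t : G) * g) ^ k * (g ^ k)⁻¹ ∈ N ∧ pr i₁ (((t : G) * g) ^ k * (g ^ k)⁻¹) = 1 ∧
      (0 < k → k ≤ j → pr i₂ (((t : G) * g) ^ k * (g ^ k)⁻¹) = t) := by
    intro k
    induction k with
    | zero =>
      have e : ((t : G) * g) ^ 0 * (g ^ 0)⁻¹ = 1 := by simp
      rw [e]
      exact ⟨N.one_mem, h.one i₁, fun h' => absurd h' (lt_irrefl 0)⟩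
    | succ k ih =>
      obtain ⟨ih1, ih2, ih3⟩ := ih
      have e : ((t : G) * g) ^ (k + 1) * (g ^ (k + 1))⁻¹ = (((t : G) * g) ^ k * (g ^ k)⁻¹) * (g ^ k * t * (g ^ k)⁻¹) := by
        rw [pow_succ, pow_succ]; group
      rw [e]
      have hw : g ^ k * (t : G) * (g ^ k)⁻¹ ∈ N := hN.conj_mem _ htN _
      obtain ⟨l, hl⟩ := h.conj (g ^ k) i₂
      have hwl : g ^ k * (t : G) * (g ^ k)⁻¹ ∈ T l := by
        rw [hl]; exact ⟨t, t.2, rfl⟩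
      have hl1 : l ≠ i₁ := by
        intro hl1
        rw [hl1, ← cjS_pow hg k] at hl
        exact h12 (h.inj (cjS_inj hl))
      refine ⟨N.mul_mem ih1 hw, ?_, fun _ hkj => ?_⟩
      · rw [h.mul i₁ _ ih1 _ hw, ih2, h.ne l i₁ hl1 _ hwl, mul_one]
      · rw [h.mul i₂ _ ih1 _ hw]
        rcases Nat.eq_zero_or_pos k with rfl | hk0
        · have e0 : ((t : G) * g) ^ 0 * (g ^ 0)⁻¹ = 1 := by simp
          have e1 : g ^ 0 * (t : G) * (g ^ 0)⁻¹ = t := by simp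
          rw [e0, e1, h.one, one_mul, h.same i₂ _ t.2]
        · have hl2 : l ≠ i₂ := by
            intro hl2
            rw [hl2] at hl
            exact hjmin k hk0 (Nat.lt_of_succ_le hkj) hl.symm
          rw [ih3 hk0 (Nat.le_of_succ_le hkj), h.ne l i₂ hl2 _ hwl, mul_one]
  obtain ⟨hv1, hv2, hv3⟩ := hv j
  replace hv3 := hv3 hj0 le_rfl
  set v : G := ((t : G) * g) ^ j * (g ^ j)⁻¹ with hvdef
  -- the element `b = h ^ j`
  have hb : n * (v * g ^ j) * n⁻¹ ∈ A := by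
    have e : n * (v * g ^ j) * n⁻¹ = (n * ((t : G) * g) * n⁻¹) ^ j := by
      rw [conj_pow, hvdef]; group
    rw [e]
    exact A.pow_mem hnt j
  set n1 : T i₁ := ⟨pr i₁ n, h.mem i₁ n hn⟩ with hn1
  set n2 : T i₂ := ⟨pr i₂ n, h.mem i₂ n hn⟩ with hn2
  -- the relation
  have key : ∀ x1 : T i₁, θ n1 * θ (cn (g ^ j) hj1 (n1⁻¹ * x1 * n1)) * (θ n1)⁻¹ =
      n2 * (t * cn (g ^ j) hj2 (n2⁻¹ * θ x1 * n2) * t⁻¹) * n2⁻¹ := by
    intro x1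
    obtain ⟨x, hx, hxx⟩ := hD1 x1 x1.2
    have hx1 : x1 = ⟨pr i₁ x, h.mem i₁ x hx.1⟩ := Subtype.ext hxx.symm
    have hx2 : (θ x1 : G) = pr i₂ x := by rw [hx1]; exact hθ x hx
    have hy : (n * (v * g ^ j) * n⁻¹) * x * (n * (v * g ^ j) * n⁻¹)⁻¹ ∈ N ⊓ A :=
      ⟨hN.conj_mem _ hx.1 _, A.mul_mem (A.mul_mem hb hx.2) (A.inv_mem hb)⟩
    have hy2 := hθ _ hy
    have h1 := pr_formula h hj1 hn hv1 hx.1
    have h2 := pr_formula h hj2 hn hv1 hx.1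
    rw [hv2, one_mul, inv_one, mul_one] at h1
    rw [hv3] at h2
    rw [h2] at hy2
    have h3 : (⟨pr i₁ ((n * (v * g ^ j) * n⁻¹) * x * (n * (v * g ^ j) * n⁻¹)⁻¹), h.mem i₁ _ hy.1⟩ : T i₁) =
        n1 * cn (g ^ j) hj1 (n1⁻¹ * x1 * n1) * n1⁻¹ := by
      apply Subtype.ext
      change pr i₁ ((n * (v * g ^ j) * n⁻¹) * x * (n * (v * g ^ j) * n⁻¹)⁻¹) =
        pr i₁ n * (g ^ j * ((pr i₁ n)⁻¹ * (x1 : G) * pr i₁ n) * (g ^ j)⁻¹) * (pr i₁ n)⁻¹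
      rw [h1, hxx]
    rw [h3, map_mul, map_mul, map_inv] at hy2
    apply Subtype.ext
    rw [hy2]
    change _ = pr i₂ n * ((t : G) * (g ^ j * ((pr i₂ n)⁻¹ * (θ x1 : G) * pr i₂ n) * (g ^ j)⁻¹) * (t : G)⁻¹) *
      (pr i₂ n)⁻¹
    rw [hx2]
  refine ⟨n2⁻¹ * θ n1, fun s => ?_⟩
  have h5 := key (θ.symm (n2 * s * n2⁻¹))
  rw [MulEquiv.apply_symm_apply] at h5
  have e1 : n2⁻¹ * (n2 * s * n2⁻¹) * n2 = s := by group
  rw [e1] at h5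
  have e2 : θ.symm ((n2⁻¹ * θ n1)⁻¹ * s * (n2⁻¹ * θ n1)) = n1⁻¹ * θ.symm (n2 * s * n2⁻¹) * n1 := by
    have : (n2⁻¹ * θ n1)⁻¹ * s * (n2⁻¹ * θ n1) = (θ n1)⁻¹ * (n2 * s * n2⁻¹) * θ n1 := by group
    rw [this, map_mul, map_mul, map_inv, MulEquiv.symm_apply_apply]
  rw [e2]
  calc n2⁻¹ * θ n1 * θ (cn (g ^ j) hj1 (n1⁻¹ * θ.symm (n2 * s * n2⁻¹) * n1)) * (n2⁻¹ * θ n1)⁻¹
      = n2⁻¹ * (θ n1 * θ (cn (g ^ j) hj1 (n1⁻¹ * θ.symm (n2 * s * n2⁻¹) * n1)) * (θ n1)⁻¹) * n2 := by group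
    _ = n2⁻¹ * (n2 * (t * cn (g ^ j) hj2 s * t⁻¹) * n2⁻¹) * n2 := by rw [h5]
    _ = t * cn (g ^ j) hj2 s * t⁻¹ := by group

/-- at most half of the elements `t g` are conjugate into `A` -/
theorem diag_count [Finite G] [hN : N.Normal] (h : Co N T pr) {A : Subgroup G} (hNA : N ⊔ A = ⊤) {i₁ i₂ : Fin m}
    (h12 : i₁ ≠ i₂) (θ : T i₁ ≃* T i₂)
    (hθ : ∀ (x : G) (hx : x ∈ N ⊓ A), (θ ⟨pr i₁ x, h.mem i₁ x hx.1⟩ : G) = pr i₂ x)
    (hD1 : ∀ t ∈ T i₁, ∃ x ∈ N ⊓ A, pr i₁ x = t) (hfix : Fix (T i₂)) {g : G} (hg : cjS g (T i₁) = T i₁) :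
    2 * Nat.card {t : T i₂ // ∃ k : G, k * ((t : G) * g) * k⁻¹ ∈ A} ≤ Nat.card (T i₂) := by
  classical
  have hex : ∃ j : ℕ, 0 < j ∧ cjS (g ^ j) (T i₂) = T i₂ :=
    ⟨orderOf g, orderOf_pos g, by rw [pow_orderOf_eq_one]; exact cjS_of_mem (T i₂).one_mem⟩
  obtain ⟨hj0, hj2⟩ := Nat.find_spec hex
  have hjmin : ∀ k, 0 < k → k < Nat.find hex → cjS (g ^ k) (T i₂) ≠ T i₂ := fun k hk0 hk hk2 =>
    Nat.find_min hex hk ⟨hk0, hk2⟩
  set j := Nat.find hex with hj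
  have hj1 : cjS (g ^ j) (T i₁) = T i₁ := cjS_pow hg j
  let ψ : MulAut (T i₂) := θ.symm.trans ((cn (g ^ j) hj1).trans θ)
  have hψ : ∀ s, ψ s = θ (cn (g ^ j) hj1 (θ.symm s)) := fun s => rfl
  let F : T i₂ → MulAut (T i₂) := fun u => MulAut.conj u * ψ * (MulAut.conj u)⁻¹
  obtain ⟨z, hz1, hz⟩ := hfix ψ
  have hzc : Commute (MulAut.conj z) ψ := by
    ext s
    change ((z * ψ s * z⁻¹ : T i₂) : G) = ((ψ (z * s * z⁻¹) : T i₂) : G)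
    rw [map_mul, map_mul, map_inv, hz]
  have hF := two_mul_card_range F (Subgroup.zpowers z) (by
    rintro u _ ⟨k, rfl⟩
    change MulAut.conj (u * z ^ k) * ψ * (MulAut.conj (u * z ^ k))⁻¹ = MulAut.conj u * ψ * (MulAut.conj u)⁻¹
    have h1 : MulAut.conj z ^ k * ψ = ψ * MulAut.conj z ^ k := (hzc.zpow_left k).eq
    rw [map_mul, map_zpow]
    calc MulAut.conj u * MulAut.conj z ^ k * ψ * (MulAut.conj u * MulAut.conj z ^ k)⁻¹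
        = MulAut.conj u * (MulAut.conj z ^ k * ψ) * (MulAut.conj z ^ k)⁻¹ * (MulAut.conj u)⁻¹ := by group
      _ = MulAut.conj u * ψ * (MulAut.conj u)⁻¹ := by rw [h1]; group) (by rwa [Ne, Subgroup.zpowers_eq_bot])
  refine le_trans (Nat.mul_le_mul_left 2 ?_) hF
  refine Nat.card_le_card_of_injective (fun t : {t : T i₂ // ∃ k : G, k * ((t : G) * g) * k⁻¹ ∈ A} =>
    (⟨MulAut.conj t.1 * cn (g ^ j) hj2, ?_⟩ : Set.range F)) ?_
  · obtain ⟨u, hu⟩ := diag_claim h hNA h12 θ hθ hD1 hg hj0 hj1 hj2 hjmin t.1 t.2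
    refine ⟨u, ?_⟩
    ext s
    have hus : u * ψ (u⁻¹ * s * u) * u⁻¹ = t.1 * cn (g ^ j) hj2 s * (t.1)⁻¹ := hu s
    have hFs : F u s = u * ψ (u⁻¹ * s * u) * u⁻¹ := by
      change (MulAut.conj u * ψ * (MulAut.conj u)⁻¹) s = _
      rw [← map_inv, MulAut.mul_apply, MulAut.mul_apply, MulAut.conj_apply, MulAut.conj_apply, inv_inv]
    rw [hFs, hus, MulAut.mul_apply, MulAut.conj_apply]
  · intro t t' htt
    apply Subtype.ext
    apply conj_injective h i₂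
    exact mul_right_cancel (Subtype.mk.inj htt)

end

end Cfsg.Agent.H383.Dg
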